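import Mathlib

/-!
Iterated cores of a subgroup and its conjugate by an involution, controlled by a filtration.
-/

set_option autoImplicit false

namespace CfsgLib.ChevCores

variable {Γ : Type*} [Group Γ]

/-- `X` is normalised by `K`. -/
def NormBy (K X : Subgroup Γ) : Prop := ∀ a ∈ K, ∀ x ∈ X, a * x * a⁻¹ ∈ X

theorem NormBy.inf {K X Y : Subgroup Γ} (hX : NormBy K X) (hY : NormBy K Y) :
    NormBy K (X ⊓ Y) := fun a ha x hx => ⟨hX a ha x hx.1, hY a ha x hx.2⟩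

theorem NormBy.inv_conj {K X : Subgroup Γ} (hX : NormBy K X) {a x : Γ} (ha : a ∈ K) (hx : x ∈ X) :
    a⁻¹ * x * a ∈ X := by
  simpa using hX a⁻¹ (inv_mem ha) x hx

theorem mem_coreMap {M Y : Subgroup Γ} {x : Γ} :
    x ∈ (Y.subgroupOf M).normalCore.map M.subtype ↔ x ∈ M ∧ ∀ m ∈ M, m * x * m⁻¹ ∈ Y := by
  constructor
  · rintro ⟨⟨y, hy⟩, h, rfl⟩
    exact ⟨hy, fun m hm => h ⟨m, hm⟩⟩
  · rintro ⟨hx, h⟩
    exact ⟨⟨x, hx⟩, fun m => h m m.2, rfl⟩

theorem normBy_coreMap (M Y : Subgroup Γ) :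
    NormBy M ((Y.subgroupOf M).normalCore.map M.subtype) := by
  intro a ha x hx
  rw [mem_coreMap] at hx ⊢
  refine ⟨mul_mem (mul_mem ha hx.1) (inv_mem ha), fun m hm => ?_⟩
  simpa [mul_assoc] using hx.2 (m * a) (mul_mem hm ha)

theorem mem_map_conj_invol {s : Γ} (hs : s * s = 1) {H : Subgroup Γ} {x : Γ} :
    x ∈ H.map (MulAut.conj s).toMonoidHom ↔ s * x * s ∈ H := by
  have hi : s⁻¹ = s := inv_eq_of_mul_eq_one_right hs
  rw [Subgroup.mem_map_equiv, MulAut.conj_symm_apply, hi]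

/-- The sequence of iterated cores inside `M`. -/
def coreSeq (M : Subgroup Γ) (s : Γ) : ℕ → Subgroup Γ
  | 0 => M
  | n + 1 => ((coreSeq M s n ⊓ (coreSeq M s n).map (MulAut.conj s).toMonoidHom).subgroupOf
      M).normalCore.map M.subtype

variable {M : Subgroup Γ} {s : Γ}

theorem mem_coreSeq_succ (hs : s * s = 1) {n : ℕ} {x : Γ} :
    x ∈ coreSeq M s (n + 1) ↔ x ∈ M ∧
      ∀ m ∈ M, m * x * m⁻¹ ∈ coreSeq M s n ∧ s * (m * x * m⁻¹) * s ∈ coreSeq M s n := by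
  rw [coreSeq, mem_coreMap]
  simp only [Subgroup.mem_inf, mem_map_conj_invol hs]

theorem coreSeq_le_self : ∀ n, coreSeq M s n ≤ M
  | 0 => le_rfl
  | _ + 1 => by rintro x ⟨⟨y, hy⟩, -, rfl⟩; exact hy

theorem normBy_coreSeq : ∀ n, NormBy M (coreSeq M s n)
  | 0 => fun _ ha _ hx => mul_mem (mul_mem ha hx) (inv_mem ha)
  | _ + 1 => normBy_coreMap _ _

theorem coreSeq_succ_step (hs : s * s = 1) {n : ℕ} {x : Γ} (hx : x ∈ coreSeq M s (n + 1)) :
    x ∈ coreSeq M s n ∧ s * x * s ∈ coreSeq M s n := by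
  simpa using ((mem_coreSeq_succ hs).mp hx).2 1 (one_mem M)

/-- The sequence inside the conjugate is the conjugate sequence. -/
theorem map_coreSeq_succ (hs : s * s = 1) (n : ℕ) :
    (coreSeq M s (n + 1)).map (MulAut.conj s).toMonoidHom =
      (((coreSeq M s n ⊓ (coreSeq M s n).map (MulAut.conj s).toMonoidHom).subgroupOf
        (M.map (MulAut.conj s).toMonoidHom)).normalCore).map
          (M.map (MulAut.conj s).toMonoidHom).subtype := by
  have hi : s⁻¹ = s := inv_eq_of_mul_eq_one_right hs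
  have hss : ∀ z : Γ, s * (s * z) = z := fun z => by rw [← mul_assoc, hs, one_mul]
  ext x
  rw [mem_map_conj_invol hs, mem_coreSeq_succ hs, mem_coreMap, mem_map_conj_invol hs]
  simp only [Subgroup.mem_inf, mem_map_conj_invol hs]
  refine and_congr_right fun _ => ⟨fun h m hm => ?_, fun h m hm => ?_⟩
  · obtain ⟨h1, h2⟩ := h _ hm
    simp only [mul_inv_rev, hi, mul_assoc, hss, hs, mul_one] at h1 h2 ⊢
    exact ⟨h2, h1⟩
  · obtain ⟨h1, h2⟩ := h (s * m * s) (by simpa [mul_assoc, hss, hs] using hm)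
    simp only [mul_inv_rev, hi, mul_assoc, hss, hs, mul_one] at h1 h2 ⊢
    exact ⟨h2, h1⟩

variable {V : ℕ → Subgroup Γ}

theorem le_coreSeq (hs : s * s = 1) (hVM : V 1 ≤ M) (hVn : ∀ i, 1 ≤ i → NormBy M (V i))
    (hVd : ∀ i, 1 ≤ i → V (i + 1) ≤ V i)
    (hL : ∀ i, 1 ≤ i → ∀ v ∈ V (i + 1), s * v * s ∈ V i) :
    ∀ n, V (n + 1) ≤ coreSeq M s n
  | 0 => hVM
  | n + 1 => fun x hx => by
    have ih := le_coreSeq hs hVM hVn hVd hL n
    rw [mem_coreSeq_succ hs]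
    refine ⟨coreSeq_le_self n (ih (hVd _ (by omega) hx)), fun m hm => ?_⟩
    have h1 := hVn (n + 1 + 1) (by omega) m hm x hx
    exact ⟨ih (hVd _ (by omega) h1), ih (hL _ (by omega) _ h1)⟩

theorem coreSeq_inf_le (hs : s * s = 1) (hVn : ∀ i, 1 ≤ i → NormBy M (V i))
    (hVd : ∀ i, 1 ≤ i → V (i + 1) ≤ V i)
    (hL : ∀ i, 1 ≤ i → ∀ v ∈ V (i + 1), s * v * s ∈ V i)
    (hY1 : ∀ Y, NormBy M Y → Y ≤ V 1 → (∀ y ∈ Y, s * y * s ∈ M) → Y ≤ V 2)
    (hY : ∀ i, 2 ≤ i → ∀ Y, NormBy M Y → Y ≤ V i → (∀ y ∈ Y, s * y * s ∈ V i) → Y ≤ V (i + 1)) :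
    ∀ n, coreSeq M s (n + 1) ⊓ V 1 ≤ V (n + 2) := by
  have hmono : ∀ i, 1 ≤ i → V i ≤ V 1 := by
    intro i hi
    induction i, hi using Nat.le_induction with
    | base => exact le_rfl
    | succ j hj ih => exact (hVd j hj).trans ih
  intro n
  induction n with
  | zero =>
    refine hY1 _ ((normBy_coreSeq _).inf (hVn 1 le_rfl)) inf_le_right fun y hy => ?_
    exact (coreSeq_succ_step hs hy.1).2
  | succ n ih =>
    have hle : coreSeq M s (n + 1 + 1) ⊓ V 1 ≤ V (n + 2) := fun y hy =>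
      ih ⟨(coreSeq_succ_step hs hy.1).1, hy.2⟩
    refine hY _ (by omega) _ ((normBy_coreSeq _).inf (hVn 1 le_rfl)) hle fun y hy => ?_
    exact ih ⟨(coreSeq_succ_step hs hy.1).2,
      hmono _ (by omega) (hL (n + 1) (by omega) y (hle hy))⟩

end CfsgLib.ChevCores
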