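import Cfsg.Agent.Chevalley.Parabolic
import Cfsg.Agent.ChevCores.Abstract

/-!
Level sets of one fundamental coefficient: normality in the maximal parabolic subgroup, descent of
normal subgroups along the levels, and the centraliser of the radical.
-/

set_option autoImplicit false

namespace CfsgLib.Chevalley

open Cfsg.Lie
open CfsgLib.ChevCores (NormBy)
open scoped Matrix Pointwise

variable {D : ChevalleyDatum}

namespace Sys

/-- The preimage of a set of positive roots under a fundamental reflection. -/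
def preSet (_S : Sys D) (i : ℕ) (T : Set ℕ) : Set ℕ :=
  {r | r < D.nroots ∧ D.reflectRoot i r ∈ T ∧ D.nroots / 2 ≤ D.reflectRoot i r}

variable (S : Sys D)
include S

/-- Roots with coefficient at least `i` at the node `k`. -/
def lvlSet (k i : ℕ) : Set ℕ := {r | (i : ℤ) ≤ S.vec k r}

/-- Roots outside the parabolic subsystem of `k`, or of height above `h`. -/
def highSet (k h : ℕ) : Set ℕ :=
  {r | 1 ≤ S.vec k r ∨ (h : ℤ) < ∑ m ∈ Finset.range D.rank, S.vec m r}

/-- Roots dominating `r` coefficientwise. -/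
def coneSet (r : ℕ) : Set ℕ := {c | ∀ m < D.rank, S.vec m r ≤ S.vec m c}

/-- Upward closed for the coefficientwise order. -/
def UpSet (T : Set ℕ) : Prop :=
  ∀ r ∈ T, ∀ c < D.nroots, (∀ m < D.rank, S.vec m r ≤ S.vec m c) → c ∈ T

theorem upSet_lvl {k : ℕ} (hk : k < D.rank) (i : ℕ) : S.UpSet (S.lvlSet k i) :=
  fun _ hr _ _ h => le_trans hr (h k hk)

theorem upSet_high {k : ℕ} (hk : k < D.rank) (h : ℕ) : S.UpSet (S.highSet k h) := by
  intro r hr c _ hc
  rcases hr with hr | hr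
  · exact Or.inl (hr.trans (hc k hk))
  · exact Or.inr (hr.trans_le (Finset.sum_le_sum fun m hm => hc m (Finset.mem_range.mp hm)))

theorem upSet_cone (r : ℕ) : S.UpSet (S.coneSet r) :=
  fun _ hs _ _ h m hm => (hs m hm).trans (h m hm)

theorem le_comb {r s c : ℕ} (hr : r < D.nroots) (hrp : D.nroots / 2 ≤ r) (hs : s < D.nroots)
    (hsp : D.nroots / 2 ≤ s) {a b : ℕ} (ha : 1 ≤ a)
    (h : ∀ m < D.rank, S.vec m c = a * S.vec m r + b * S.vec m s) :
    ∀ m < D.rank, S.vec m r ≤ S.vec m c := fun m hm => by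
  rw [h m hm]
  exact le_add_of_le_of_nonneg (le_mul_of_one_le_left (S.vec_pos r hr hrp m hm) (by exact_mod_cast ha))
    (mul_nonneg (by positivity) (S.vec_pos s hs hsp m hm))

theorem closed_of_up {T : Set ℕ} (hT : S.UpSet T) : S.Closed T := by
  intro r hr s _ hrp hsp c hc a b ha _ hv
  obtain ⟨h1, h2⟩ := (S.pos_iff r).mp hrp
  obtain ⟨h3, h4⟩ := (S.pos_iff s).mp hsp
  exact hT r hr c hc (S.le_comb h2 h1 h4 h3 ha hv)

theorem closed_inter {P Q : Set ℕ} (hP : S.Closed P) (hQ : S.Closed Q) : S.Closed (P ∩ Q) :=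
  fun r hr s hs h1 h2 c hc a b ha hb hv =>
    ⟨hP r hr.1 s hs.1 h1 h2 c hc a b ha hb hv, hQ r hr.2 s hs.2 h1 h2 c hc a b ha hb hv⟩

theorem closed_diff {T : Set ℕ} (hT : S.Closed T) {g : ℕ}
    (h : ∀ r ∈ T, ∀ s ∈ T, D.IsPosRoot r → D.IsPosRoot s → ∀ a b : ℕ, 1 ≤ a → 1 ≤ b →
      ∃ m < D.rank, S.vec m g ≠ a * S.vec m r + b * S.vec m s) :
    S.Closed (T \ {g}) := by
  intro r hr s hs hrp hsp c hc a b ha hb hv
  refine ⟨hT r hr.1 s hs.1 hrp hsp c hc a b ha hb hv, fun e => ?_⟩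
  obtain ⟨m, hm, hne⟩ := h r hr.1 s hs.1 hrp hsp a b ha hb
  rw [Set.mem_singleton_iff] at e
  subst e
  exact hne (hv m hm)

theorem closed_lvl_diff {k i : ℕ} (hk : k < D.rank) (hi : 1 ≤ i) {g : ℕ} (hg : S.vec k g = i) :
    S.Closed (S.lvlSet k i \ {g}) := by
  refine S.closed_diff (S.closed_of_up (S.upSet_lvl hk i)) fun r hr s hs _ _ a b ha hb =>
    ⟨k, hk, fun e => ?_⟩
  simp only [lvlSet, Set.mem_ofPred_eq] at hr hs
  have h1 : (i : ℤ) ≤ a * S.vec k r :=
    hr.trans (le_mul_of_one_le_left (by omega) (by exact_mod_cast ha))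
  have h2 : (i : ℤ) ≤ b * S.vec k s :=
    hs.trans (le_mul_of_one_le_left (by omega) (by exact_mod_cast hb))
  omega

variable (F : Type*) [Field F]

include F in
theorem closed_preSet {i : ℕ} (hi : i < D.rank) {T : Set ℕ} (hT : S.Closed T) :
    S.Closed (S.preSet i T) := by
  rintro r ⟨hr, hr1, hr2⟩ s ⟨hs, hs1, hs2⟩ - - c hc a b ha hb hv
  have hlin : ∀ m < D.rank, S.vec m (D.reflectRoot i c) =
      a * S.vec m (D.reflectRoot i r) + b * S.vec m (D.reflectRoot i s) := by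
    intro m hm
    have h := S.vec_perm F (S.nN F ⟨i, hi⟩) (k := ⟨c, hc⟩) (r := ⟨r, hr⟩) (s := ⟨s, hs⟩) a b hv m hm
    rw [S.perm_nN] at h
    simpa [srefl_val] using h
  have hrl := S.w_lt i hi r hr
  have hsl := S.w_lt i hi s hs
  have hcl := S.w_lt i hi c hc
  refine ⟨hc, hT _ hr1 _ hs1 ((S.pos_iff _).mpr ⟨hr2, hrl⟩) ((S.pos_iff _).mpr ⟨hs2, hsl⟩) _ hcl
    a b ha hb hlin, ?_⟩
  obtain ⟨m, hm, hpos⟩ := S.exists_vec_pos hrl hr2
  exact S.pos_of_vec hcl hm (hpos.trans_le (S.le_comb hrl hr2 hsl hs2 ha hlin m hm))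

theorem nG_conj_uSub {i : ℕ} (hi : i < D.rank) {P Q : Set ℕ}
    (h : ∀ r ∈ P, D.nroots / 2 ≤ r → r < D.nroots →
      D.reflectRoot i r ∈ Q ∧ D.nroots / 2 ≤ D.reflectRoot i r)
    {g : GL D.Idx F} (hg : g ∈ uSub D F P) :
    S.nG F (D.simple i) 1 * g * (S.nG F (D.simple i) 1)⁻¹ ∈ uSub D F Q := by
  refine closure_conj_mem ?_ hg
  rintro x ⟨r, t, ⟨hrP, hrp⟩, hx⟩
  obtain ⟨h1, h2⟩ := (S.pos_iff r).mp hrp
  rw [S.eq_xG F hx, S.nG_conj_xG F hi h2, mul_inv_cancel_right]
  exact S.xG_mem_uSub F (h r hrP h1 h2).1 (h r hrP h1 h2).2 (S.w_lt i hi r h2) _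

theorem xG_conj_up {T : Set ℕ} {e : ℕ} (he : e < D.nroots)
    (hpos : ∀ r ∈ T, D.nroots / 2 ≤ r → r < D.nroots → r ≠ D.neg e)
    (hup : ∀ r ∈ T, D.nroots / 2 ≤ r → r < D.nroots → ∀ c < D.nroots, ∀ a b : ℕ, 1 ≤ a → 1 ≤ b →
      (∀ m < D.rank, S.vec m c = a * S.vec m e + b * S.vec m r) → c ∈ T ∧ D.nroots / 2 ≤ c)
    (t : F) {g : GL D.Idx F} (hg : g ∈ uSub D F T) :
    S.xG F e t * g * (S.xG F e t)⁻¹ ∈ uSub D F T := by
  refine closure_conj_mem ?_ hg
  rintro x ⟨s, u, ⟨hsP, hsp⟩, hx⟩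
  obtain ⟨hs1, hs2⟩ := (S.pos_iff s).mp hsp
  rw [S.eq_xG F hx]
  by_cases hse : s = e
  · subst hse
    rw [S.xG_inv, S.xG_add, S.xG_add]
    exact S.xG_mem_uSub F hsP hs1 hs2 _
  rw [show S.xG F e t = (S.xG F e (-t))⁻¹ by rw [S.xG_inv, neg_neg], inv_inv,
    S.xG_comm F he hs2 hse (hpos s hsP hs1 hs2)]
  refine mul_mem (S.xG_mem_uSub F hsP hs1 hs2 u) (S.wG_commWord_mem F he hs2 _ u fun c hc => ?_)
  obtain ⟨c1, c2, c3⟩ := S.commTerms_vec he hs2 hc
  exact hup s hsP hs1 hs2 c.1 (S.commTerms_lt he hs2 hc) _ _ c1 c2 c3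

theorem posUnipotent_normBy_up {T : Set ℕ} (hT : S.UpSet T) :
    NormBy (D.posUnipotent F) (uSub D F T) := by
  suffices D.posUnipotent F ≤ Subgroup.normalizer (uSub D F T : Set (GL D.Idx F)) from
    fun a ha x hx => (Subgroup.mem_normalizer_iff.mp (this ha) x).mp hx
  rw [← uSub_univ]
  refine S.uSub_le F fun e _ he1 he2 t => ?_
  rw [Subgroup.mem_normalizer_iff]
  have key : ∀ t : F, ∀ g ∈ uSub D F T, S.xG F e t * g * (S.xG F e t)⁻¹ ∈ uSub D F T := by
    intro t g hg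
    refine S.xG_conj_up F he2 ?_ ?_ t hg
    · intro r _ hr1 hr2 h
      have := (S.neg_half e he2).mpr he1
      omega
    · intro r hr hr1 hr2 c hc a b ha hb hv
      have h := S.le_comb (a := b) (b := a) hr2 hr1 he2 he1 hb
        fun m hm => (hv m hm).trans (add_comm _ _)
      obtain ⟨m, hm, hpos⟩ := S.exists_vec_pos hr2 hr1
      exact ⟨hT r hr c hc h, S.pos_of_vec hc hm (hpos.trans_le (h m hm))⟩
  refine fun g => ⟨key t g, fun h => ?_⟩
  have h' := key (-t) _ h
  rw [← S.xG_inv] at h'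
  simpa [mul_assoc] using h'

/-- The torus is trivial over the field with two elements. -/
theorem diagonal_eq_bot (hF : ∀ t : F, t = 0 ∨ t = 1) : D.diagonalSubgroup F = ⊥ := by
  rw [S.diagonal_eq, eq_bot_iff]
  rintro _ ⟨c, rfl⟩
  have : c = 1 := funext fun j => Units.ext ((hF (c j : F)).resolve_left (Units.ne_zero _))
  rw [this, map_one]
  exact one_mem _

theorem borel_eq_pos (hF : ∀ t : F, t = 0 ∨ t = 1) : D.borelSubgroup F = D.posUnipotent F := by
  rw [ChevalleyDatum.borelSubgroup, S.diagonal_eq_bot F hF, sup_bot_eq]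

theorem lvl_normBy (hS : S.SupportEq) {k : ℕ} (hk : k < D.rank) (hF : ∀ t : F, t = 0 ∨ t = 1)
    {i : ℕ} (hi : 1 ≤ i) :
    NormBy (D.parabolicSubgroup F {j | j ≠ k}) (uSub D F (S.lvlSet k i)) := by
  suffices D.parabolicSubgroup F {j | j ≠ k} ≤
      Subgroup.normalizer (uSub D F (S.lvlSet k i) : Set (GL D.Idx F)) from
    fun a ha x hx => (Subgroup.mem_normalizer_iff.mp (this ha) x).mp hx
  rw [S.parabolic_eq_diag_closure F hS, S.diagonal_eq_bot F hF, bot_sup_eq, Subgroup.closure_le]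
  rintro x ⟨e, t, he, hx⟩
  rw [S.eq_xG F hx, SetLike.mem_coe, Subgroup.mem_normalizer_iff]
  have hel : e < D.nroots := by
    rcases he with he | he
    · exact ((S.pos_iff e).mp he).2
    · exact he.1
  have hek : 0 ≤ S.vec k e := by
    rcases he with he | he
    · exact S.vec_pos e hel ((S.pos_iff e).mp he).1 k hk
    · exact (((S.mem_inRootSub hS).mp he).2 k hk (by simp)).ge
  have key : ∀ t : F, ∀ g ∈ uSub D F (S.lvlSet k i),
      S.xG F e t * g * (S.xG F e t)⁻¹ ∈ uSub D F (S.lvlSet k i) := by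
    intro t g hg
    refine S.xG_conj_up F hel ?_ ?_ t hg
    · intro r hr _ _ h
      simp only [lvlSet, Set.mem_ofPred_eq] at hr
      rw [h, S.vec_neg k hk e hel] at hr
      omega
    · intro r hr _ _ c hc a b _ hb hv
      simp only [lvlSet, Set.mem_ofPred_eq] at hr ⊢
      have h1 : (i : ℤ) ≤ b * S.vec k r :=
        hr.trans (le_mul_of_one_le_left (by omega) (by exact_mod_cast hb))
      have h2 : 0 ≤ (a : ℤ) * S.vec k e := mul_nonneg (by positivity) hek
      have h3 := hv k hk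
      exact ⟨by omega, S.pos_of_vec hc hk (by omega)⟩
  refine fun g => ⟨key t g, fun h => ?_⟩
  have h' := key (-t) _ h
  rw [← S.xG_inv] at h'
  simpa [mul_assoc] using h'

/-- The component at a fundamental root vanishes when the reflected element stays in `K`. -/
theorem mem_others_of_conj (hF : ∀ t : F, t = 0 ∨ t = 1) {i : ℕ} (hi : i < D.rank)
    {K : Subgroup (GL D.Idx F)} (hBK : D.borelSubgroup F ≤ K)
    (hK : S.xG F (D.neg (D.simple i)) 1 ∉ K) {y : GL D.Idx F} (hy : y ∈ D.posUnipotent F)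
    (hy' : S.nG F (D.simple i) 1 * y * (S.nG F (D.simple i) 1)⁻¹ ∈ K) :
    y ∈ uSub D F (S.others i) := by
  obtain ⟨u, hu, t, rfl⟩ := S.posUnipotent_split F hi hy
  rcases hF t with rfl | rfl
  · simpa [S.xG_zero] using hu
  exfalso
  set n := S.nG F (D.simple i) 1
  have hl := S.wf.simple_lt i hi
  have h1 : n * u * n⁻¹ ∈ K := hBK (S.others_le_borel F i (S.nG_conj_others F hi 1 hu))
  have h2 : n * S.xG F (D.simple i) 1 * n⁻¹ ∈ K := by
    have h := mul_mem (inv_mem h1) hy'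
    simpa [mul_assoc] using h
  rw [S.nG_conj_xG F hi hl, mul_inv_cancel_right, S.w_simple hi, S.eta_simple i hi] at h2
  have h3 : ((-1 : ℤ) : F) * 1 = 1 :=
    (hF _).resolve_left (by rw [mul_one, Int.cast_neg, Int.cast_one]; exact neg_ne_zero.mpr one_ne_zero)
  rw [h3] at h2
  exact hK h2

theorem xG_neg_simple_not_mem_borel {i : ℕ} (hi : i < D.rank) :
    S.xG F (D.neg (D.simple i)) 1 ∉ D.borelSubgroup F :=
  S.xG_neg_not_mem_borel F
    ((S.neg_half _ (S.wf.simple_lt i hi)).mpr (S.simple_pos i hi)) one_ne_zero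

theorem xG_neg_simple_not_mem_parabolic (hS : S.SupportEq) {k : ℕ} (hk : k < D.rank)
    (hF : ∀ t : F, t = 0 ∨ t = 1) :
    S.xG F (D.neg (D.simple k)) 1 ∉ D.parabolicSubgroup F {j | j ≠ k} := by
  intro h
  set P := D.parabolicSubgroup F {j | j ≠ k}
  have hl := S.wf.simple_lt k hk
  have hp := S.simple_pos k hk
  have hx : S.xG F (D.simple k) 1 ∈ P := Subgroup.mem_sup_left (S.xG_mem_borel F hp hl 1)
  have hn : S.nG F (D.simple k) 1 ∈ P := by
    rw [S.nG_eq, (hF (-1⁻¹)).resolve_left (by simp)]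
    exact mul_mem (mul_mem hx h) hx
  have hmem : S.xG F (D.simple k) 1 ∈ uSub D F (S.lvlSet k 1) :=
    S.xG_mem_uSub F (by simp [lvlSet, S.vec_simple k hk k hk]) hp hl 1
  have h2 := S.lvl_normBy F hS hk hF le_rfl _ hn _ hmem
  rw [S.nG_conj_xG F hk hl, mul_inv_cancel_right, S.w_simple hk] at h2
  refine S.xG_neg_not_mem_borel F ((S.neg_half _ hl).mpr hp) ?_
    (Subgroup.mem_sup_left (uSub_le_posUnipotent F _ h2))
  rw [mul_one, S.eta_simple k hk]
  simp

theorem le_uSub_diff {T R : Set ℕ} (hT : S.Closed T) {X : Subgroup (GL D.Idx F)}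
    (hX : X ≤ uSub D F T) (h : ∀ r ∈ R, r ∈ T → D.nroots / 2 ≤ r → r < D.nroots →
      ∃ Q, S.Closed Q ∧ r ∉ Q ∧ X ≤ uSub D F Q) :
    X ≤ uSub D F (T \ R) := by
  intro x hx
  obtain ⟨t, ht, rfl⟩ := S.exists_ordProd_half F hT (hX hx)
  refine S.ordProd_mem F t le_rfl fun r h1 h2 => ?_
  by_cases h0 : t r = 0
  · exact Or.inr h0
  refine Or.inl ⟨(ht r h0).1, fun hR => ?_⟩
  obtain ⟨Q, hQ, hrQ, hXQ⟩ := h r hR (ht r h0).1 h1 h2
  obtain ⟨u, hu, e⟩ := S.exists_ordProd_half F hQ (hXQ hx)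
  exact hrQ (hu r (S.ordProd_inj_half F e h1 h2 ▸ h0)).1

theorem le_preSet {i : ℕ} (hi : i < D.rank) {T : Set ℕ} (hne : D.simple i ∉ T)
    {K X : Subgroup (GL D.Idx F)} (hn : S.nG F (D.simple i) 1 ∈ K) (hX : NormBy K X)
    (hXT : X ≤ uSub D F T) : X ≤ uSub D F (S.preSet i T) := by
  intro x hx
  have h := S.nG_conj_uSub F hi (Q := S.preSet i T) ?_ (hXT (hX.inv_conj hn hx))
  · simpa [mul_assoc] using h
  intro r hr h1 h2
  refine ⟨⟨S.w_lt i hi r h2, ?_, ?_⟩, S.w_pos i hi r h2 h1 fun e => hne (e ▸ hr)⟩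
  · rw [S.w_w i hi r h2]; exact hr
  · rw [S.w_w i hi r h2]; exact h1

/-- Descent on one level: avoiding the lowest root of a level, one drops to the next level. -/
theorem level_descent {k i g : ℕ} (hk : k < D.rank) (hi : 1 ≤ i) (hg : S.vec k g = i)
    (hdesc : ∀ r < D.nroots, D.nroots / 2 ≤ r → S.vec k r = i → r ≠ g →
      ∃ j < D.rank, j ≠ k ∧ D.reflectRoot j r < r)
    {X : Subgroup (GL D.Idx F)} (hX : NormBy (D.parabolicSubgroup F {j | j ≠ k}) X)
    (hXg : X ≤ uSub D F (S.lvlSet k i \ {g})) : X ≤ uSub D F (S.lvlSet k (i + 1)) := by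
  have key : ∀ r < D.nroots, D.nroots / 2 ≤ r → S.vec k r = i →
      ∃ Q, S.Closed Q ∧ r ∉ Q ∧ X ≤ uSub D F Q := by
    intro r
    induction r using Nat.strong_induction_on with
    | _ r ih =>
      intro hr hp hv
      by_cases hrg : r = g
      · exact ⟨_, S.closed_lvl_diff hk hi hg, fun h => h.2 hrg, hXg⟩
      obtain ⟨j, hj, hjk, hlt⟩ := hdesc r hr hp hv hrg
      have hv' : S.vec k (D.reflectRoot j r) = i := by
        rw [S.vec_w j hj r hr k hk, if_neg (Ne.symm hjk), sub_zero, hv]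
      have hwl := S.w_lt j hj r hr
      obtain ⟨Q, hQ, hQr, hXQ⟩ := ih _ hlt hwl (S.pos_of_vec hwl hk (by omega)) hv'
      have hQ' := S.closed_inter (S.closed_lvl_diff hk hi hg) hQ
      refine ⟨_, S.closed_preSet F hj hQ', fun h => hQr h.2.1.2, ?_⟩
      refine S.le_preSet F hj ?_ (S.nG_mem_parabolic F (J := {j | j ≠ k}) hjk hj) hX ?_
      · rintro ⟨⟨h, -⟩, -⟩
        simp only [lvlSet, Set.mem_ofPred_eq, S.vec_simple j hj k hk, if_neg (Ne.symm hjk)] at h
        omega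
      · intro x hx
        rw [← S.uSub_inf F (S.closed_lvl_diff hk hi hg) hQ]
        exact ⟨hXg hx, hXQ hx⟩
  refine (S.le_uSub_diff F (S.closed_of_up (S.upSet_lvl hk i))
    (hXg.trans (uSub_mono Set.sdiff_subset)) (R := {r | S.vec k r = i})
    fun r hr _ h1 h2 => key r h2 h1 hr).trans (uSub_mono ?_)
  rintro r ⟨h1, h2⟩
  simp only [lvlSet, Set.mem_ofPred_eq] at h1 h2 ⊢
  omega

/-- A normal subgroup of the parabolic inside `U` lies in the radical. -/
theorem le_lvl_one {k : ℕ} (hk : k < D.rank) (hF : ∀ t : F, t = 0 ∨ t = 1)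
    {X : Subgroup (GL D.Idx F)} (hX : NormBy (D.parabolicSubgroup F {j | j ≠ k}) X)
    (hXU : X ≤ D.posUnipotent F) : X ≤ uSub D F (S.lvlSet k 1) := by
  have step : ∀ h : ℕ, X ≤ uSub D F (S.highSet k h) := by
    intro h
    induction h with
    | zero =>
      refine hXU.trans ?_
      rw [← uSub_univ]
      refine S.uSub_le F fun r _ h1 h2 t => S.xG_mem_uSub F (Or.inr ?_) h1 h2 t
      obtain ⟨m, hm, hpos⟩ := S.exists_vec_pos h2 h1
      exact_mod_cast Finset.sum_pos' (fun q hq => S.vec_pos r h2 h1 q (Finset.mem_range.mp hq))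
        ⟨m, Finset.mem_range.mpr hm, hpos⟩
    | succ h ih =>
      refine (S.le_uSub_diff F (S.closed_of_up (S.upSet_high hk h)) ih
        (R := {r | S.vec k r ≤ 0 ∧ ∑ m ∈ Finset.range D.rank, S.vec m r = (h : ℤ) + 1}) ?_).trans
        (uSub_mono ?_)
      swap
      · rintro r ⟨h1, h2⟩
        simp only [highSet, Set.mem_ofPred_eq, not_and] at h1 h2 ⊢
        push_cast
        omega
      rintro r ⟨hr0, hrh⟩ - hp hr
      have hr0' : S.vec k r = 0 := le_antisymm hr0 (S.vec_pos r hr hp k hk)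
      rcases S.descend r hr hp with ⟨j, hj, rfl⟩ | ⟨j, hj, hpw, hlt⟩
      · have hjk : j ≠ k := by
          rintro rfl
          rw [S.vec_simple j hj j hj, if_pos rfl] at hr0'
          exact one_ne_zero hr0'
        refine ⟨S.others j, ?_, fun h => h rfl, fun x hx => S.mem_others_of_conj F hF hj le_rfl
          (S.xG_neg_simple_not_mem_borel F hj) (hXU hx) (Subgroup.mem_sup_left (hXU
            (hX _ (S.nG_mem_parabolic F (J := {j | j ≠ k}) hjk hj) x hx)))⟩
        exact S.closed_others hj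
      have hne : r ≠ D.simple j := by
        rintro rfl
        rw [S.w_simple hj] at hpw
        have := (S.neg_half _ hr).mpr hp
        omega
      have hA := S.cartan_pos_of_lt hj hr hne hp hlt
      have hwl := S.w_lt j hj r hr
      have hjk : j ≠ k := by
        rintro rfl
        have := S.vec_pos _ hwl hpw j hj
        rw [S.vec_w j hj r hr j hj, if_pos rfl] at this
        omega
      have hht : ∑ m ∈ Finset.range D.rank, S.vec m (D.reflectRoot j r) ≤ (h : ℤ) := by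
        rw [Finset.sum_congr rfl fun m hm => S.vec_w j hj r hr m (Finset.mem_range.mp hm),
          Finset.sum_sub_distrib, Finset.sum_ite_eq' _ j, if_pos (Finset.mem_range.mpr hj), hrh]
        omega
      have hh : 1 ≤ h := by
        obtain ⟨m, hm, hpos⟩ := S.exists_vec_pos hwl hpw
        have := Finset.single_le_sum (f := fun q => S.vec q (D.reflectRoot j r))
          (fun q hq => S.vec_pos _ hwl hpw q (Finset.mem_range.mp hq)) (Finset.mem_range.mpr hm)
        omega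
      refine ⟨_, S.closed_preSet F hj (S.closed_of_up (S.upSet_high hk h)), ?_,
        S.le_preSet F hj ?_ (S.nG_mem_parabolic F (J := {j | j ≠ k}) hjk hj) hX ih⟩
      · rintro ⟨-, h1 | h1, -⟩
        · rw [S.vec_w j hj r hr k hk, if_neg (Ne.symm hjk), hr0'] at h1
          omega
        · omega
      · rintro (h1 | h1)
        · rw [S.vec_simple j hj k hk, if_neg (Ne.symm hjk)] at h1
          omega
        · rw [Finset.sum_congr rfl fun m hm => S.vec_simple j hj m (Finset.mem_range.mp hm),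
            Finset.sum_ite_eq' _ j, if_pos (Finset.mem_range.mpr hj)] at h1
          omega
  set H : ℕ := ∑ r ∈ Finset.range D.nroots, (∑ m ∈ Finset.range D.rank, S.vec m r).natAbs with hH
  refine (step H).trans (S.uSub_le F ?_)
  intro r hr h1 h2 t
  refine S.xG_mem_uSub F ?_ h1 h2 t
  rcases hr with hr | hr
  · exact_mod_cast hr
  · have := Finset.single_le_sum
      (f := fun r => (∑ m ∈ Finset.range D.rank, S.vec m r).natAbs)
      (fun q _ => Nat.zero_le _) (Finset.mem_range.mpr h2)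
    omega

/-- The centraliser of the radical lies in `U`. -/
theorem centralizer_lvl_le {k : ℕ} (hk : k < D.rank) (hF : ∀ t : F, t = 0 ∨ t = 1)
    (hgen : ∀ j < D.rank, j ≠ k → ∃ r < D.nroots, 1 ≤ S.vec k r ∧ D.cartan j r = 1)
    {x : GL D.Idx F} (hxG : x ∈ D.group F)
    (hx : ∀ v ∈ uSub D F (S.lvlSet k 1), x * v = v * x) : x ∈ D.posUnipotent F := by
  classical
  obtain ⟨b, hb, n, hn, b', hb', rfl⟩ := S.exists_bruhat F hxG
  rw [S.borel_eq_pos F hF] at hb hb'
  set nn : ↥(D.monomialSubgroup F) := ⟨n, hn⟩ with hnn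
  set σ := S.perm F nn with hσ
  have hcone : ∀ r : Fin D.nroots, 1 ≤ S.vec k r →
      ∀ m < D.rank, S.vec m r ≤ S.vec m (σ r) := by
    intro r hr
    have hp : D.nroots / 2 ≤ (r : ℕ) := S.pos_of_vec r.isLt hk (by omega)
    set v := S.xG F r 1 with hv
    have hv1 : v ∈ uSub D F (S.lvlSet k 1) := S.xG_mem_uSub F (by exact_mod_cast hr) hp r.isLt 1
    have hv2 : v ∈ uSub D F (S.coneSet r) := S.xG_mem_uSub F (P := S.coneSet r) (fun _ _ => le_rfl) hp r.isLt 1
    have hc1 := hx _ ((S.posUnipotent_normBy_up F (S.upSet_lvl hk 1)).inv_conj hb' hv1)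
    have e : n * v * n⁻¹ = (b' * b)⁻¹ * v * (b' * b) := by
      calc n * v * n⁻¹ = b⁻¹ * ((b * n * b') * (b'⁻¹ * v * b')) * b'⁻¹ * n⁻¹ := by group
        _ = b⁻¹ * ((b'⁻¹ * v * b') * (b * n * b')) * b'⁻¹ * n⁻¹ := by rw [hc1]
        _ = _ := by group
    have hmem : n * v * n⁻¹ ∈ uSub D F (S.coneSet r) := by
      rw [e]
      exact (S.posUnipotent_normBy_up F (S.upSet_cone r)).inv_conj (mul_mem hb' hb) hv2
    obtain ⟨c, hc, hct⟩ := S.conj_root F nn r
    rw [show n * v * n⁻¹ = S.xG F (σ r) (c * 1) from (hct 1).1] at hmem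
    exact (S.xG_mem_uSub_iff F (S.closed_of_up (S.upSet_cone r)) (Fin.isLt _)
      (by simpa using hc) hmem).1
  set s : Finset (Fin D.nroots) := Finset.univ.filter fun r => 1 ≤ S.vec k r with hs
  have himg : s.image σ = s := by
    refine Finset.eq_of_subset_of_card_le (fun a ha => ?_)
      (by rw [Finset.card_image_of_injective _ σ.injective])
    obtain ⟨r, hr, rfl⟩ := Finset.mem_image.mp ha
    simp only [hs, Finset.mem_filter, Finset.mem_univ, true_and] at hr ⊢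
    exact hr.trans (hcone r hr k hk)
  have hfix : ∀ r : Fin D.nroots, 1 ≤ S.vec k r → σ r = r := by
    set f : Fin D.nroots → ℤ := fun r => ∑ m ∈ Finset.range D.rank, S.vec m r with hf
    have hle : ∀ r ∈ s, f r ≤ f (σ r) := fun r hr => Finset.sum_le_sum fun m hm =>
      hcone r (Finset.mem_filter.mp hr).2 m (Finset.mem_range.mp hm)
    have heq : ∑ r ∈ s, f r = ∑ r ∈ s, f (σ r) := by
      conv_lhs => rw [← himg]
      exact Finset.sum_image fun a _ b _ h => σ.injective h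
    intro r hr
    have h1 := (Finset.sum_eq_sum_iff_of_le hle).mp heq r
      (Finset.mem_filter.mpr ⟨Finset.mem_univ _, hr⟩)
    have h2 := (Finset.sum_eq_sum_iff_of_le fun m hm => hcone r hr m (Finset.mem_range.mp hm)).mp h1
    exact Fin.ext (S.vec_inj _ (Fin.isLt _) _ r.isLt fun m hm => (h2 m (Finset.mem_range.mpr hm)).symm)
  have hsimple : ∀ j : Fin D.rank, σ (S.simpleF j) = S.simpleF j := by
    intro j
    by_cases hjk : (j : ℕ) = k
    · refine hfix _ ?_
      show 1 ≤ S.vec k (D.simple j)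
      rw [S.vec_simple j j.isLt k hk, if_pos hjk.symm]
    obtain ⟨r, hr, hr1, hcar⟩ := hgen j j.isLt hjk
    have hv : ∀ m < D.rank, S.vec m r =
        ((1 : ℕ) : ℤ) * S.vec m (D.reflectRoot j r) + ((1 : ℕ) : ℤ) * S.vec m (D.simple j) := by
      intro m hm
      rw [S.vec_w j j.isLt r hr m hm, S.vec_simple j j.isLt m hm, hcar]
      split_ifs <;> simp
    have hw1 : 1 ≤ S.vec k (D.reflectRoot j r) := by
      rw [S.vec_w j j.isLt r hr k hk, if_neg (Ne.symm hjk)]
      simpa using hr1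
    refine Fin.ext (S.vec_inj _ (Fin.isLt _) _ (Fin.isLt _) fun m hm => ?_)
    have h := S.vec_perm F nn (k := ⟨r, hr⟩) (r := ⟨_, S.w_lt j j.isLt r hr⟩) (s := S.simpleF j)
      1 1 hv m hm
    rw [← hσ, hfix ⟨r, hr⟩ hr1, hfix ⟨_, S.w_lt j j.isLt r hr⟩ hw1] at h
    have h' := hv m hm
    simp only [simpleF] at h h' ⊢
    omega
  obtain ⟨L, hL⟩ := S.exists_wperm F nn
  have h1 : S.wperm L = 1 := S.wperm_eq_one F L fun t ht =>
    S.keeps_sub (J := List.range D.rank) (U := L)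
      (fun j _ => by rw [← hL, ← hσ, hsimple]; exact S.simple_pos j j.isLt)
      (fun m hm hmJ => absurd (List.mem_range.mpr hm) hmJ) ht
  have h2 : nn ∈ hSub D F := by rw [← S.ker_perm, MonoidHom.mem_ker, hL, h1]
  rw [hSub, Subgroup.mem_subgroupOf, S.diagonal_eq_bot F hF, Subgroup.mem_bot] at h2
  change n = 1 at h2
  rw [h2, mul_one]
  exact mul_mem hb hb'

theorem eq_bot_of_inf_lvl_eq_bot (hS : S.SupportEq) {k : ℕ} (hk : k < D.rank)
    (hF : ∀ t : F, t = 0 ∨ t = 1)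
    (hgen : ∀ j < D.rank, j ≠ k → ∃ r < D.nroots, 1 ≤ S.vec k r ∧ D.cartan j r = 1)
    {X : Subgroup (GL D.Idx F)} (hX : NormBy (D.parabolicSubgroup F {j | j ≠ k}) X)
    (hXP : X ≤ D.parabolicSubgroup F {j | j ≠ k})
    (h : X ⊓ uSub D F (S.lvlSet k 1) = ⊥) : X = ⊥ := by
  have hPG : D.parabolicSubgroup F {j | j ≠ k} ≤ D.group F := by
    rw [← S.normalizer_radical F hS]
    exact inf_le_right
  have hVP : uSub D F (S.lvlSet k 1) ≤ D.parabolicSubgroup F {j | j ≠ k} :=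
    (uSub_le_posUnipotent F _).trans (le_sup_left.trans le_sup_left)
  have hXU : X ≤ D.posUnipotent F := by
    intro x hx
    refine S.centralizer_lvl_le F hk hF hgen (hPG (hXP hx)) fun v hv => ?_
    have h1 : x * v * x⁻¹ * v⁻¹ ∈ X ⊓ uSub D F (S.lvlSet k 1) := by
      refine Subgroup.mem_inf.mpr
        ⟨?_, mul_mem (S.lvl_normBy F hS hk hF le_rfl x (hXP hx) v hv) (inv_mem hv)⟩
      rw [show x * v * x⁻¹ * v⁻¹ = x * (v * x⁻¹ * v⁻¹) by group]
      exact mul_mem hx (hX v (hVP hv) _ (X.inv_mem hx))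
    rw [h, Subgroup.mem_bot, mul_inv_eq_one, mul_inv_eq_iff_eq_mul] at h1
    exact h1
  rw [← h, left_eq_inf]
  exact S.le_lvl_one F hk hF hX hXU

end Sys

end CfsgLib.Chevalley
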