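import Cfsg.Agent.Chevalley.Support
import Cfsg.Agent.ChevCores.Sets

/-!
Table facts for the node of `E₈` whose coefficient in the highest root is `6`, and the behaviour of
the levels under that fundamental reflection.
-/

set_option autoImplicit false

namespace CfsgLib.ChevCores

open Cfsg.Lie CfsgLib.Chevalley
open scoped Matrix

/-- The lowest root of each level. -/
def lowRoot (i : ℕ) : ℕ := [0, 130, 152, 194, 214, 224, 235].getD i 0

/-- All table facts used about the node. -/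
def chkNodeE8 : Bool :=
  ((List.range 240).all fun r =>
    decide (r < 120) || decide (tabE8.coord 8 3 r ≤ 0) ||
      ((decide (tabE8.coord 8 3 r ≤ 6)) &&
        (decide (tabE8.coord 8 3 r < 2) ||
          decide (tabE8.coord 8 3 r - 1 ≤ tabE8.coord 8 3 (tabE8.wF 3 r))) &&
        (decide (r = lowRoot (tabE8.coord 8 3 r).toNat) ||
          [0, 1, 2, 4, 5, 6, 7].any fun j => decide (tabE8.wF j r < r)))) &&
  ([1, 2, 3, 4, 5, 6].all fun i =>
    decide (120 ≤ lowRoot i) && decide (lowRoot i < 240) &&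
      decide (tabE8.coord 8 3 (lowRoot i) = (i : ℤ)) &&
      (decide (i = 1) || decide (tabE8.coord 8 3 (tabE8.wF 3 (lowRoot i)) < (i : ℤ)))) &&
  ([0, 1, 2, 4, 5, 6, 7].all fun j =>
    (List.range 240).any fun r =>
      decide (1 ≤ tabE8.coord 8 3 r) &&
        decide (tabE8.coord 8 j (tabE8.wF j r) = tabE8.coord 8 j r - 1)) &&
  decide (Cfsg.Lie.chevE8.simple 3 = lowRoot 1)

theorem chkNodeE8_eq : chkNodeE8 = true := by decide +kernel

theorem reflect_eq {i s : ℕ} (hi : i < 8) (hs : s < 240) :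
    Cfsg.Lie.chevE8.reflectRoot i s = tabE8.wF i s :=
  reflectRoot_wF (checkedE8.cW i hi) hs

theorem vec_eq (j s : ℕ) : sysE8.vec j s = tabE8.coord 8 j s := rfl

theorem node_roots {r : ℕ} (hr : r < 240) (hp : 120 ≤ r) (h1 : 1 ≤ sysE8.vec 3 r) :
    sysE8.vec 3 r ≤ 6 ∧
      (2 ≤ sysE8.vec 3 r → sysE8.vec 3 r - 1 ≤ sysE8.vec 3 (Cfsg.Lie.chevE8.reflectRoot 3 r)) ∧
      (r ≠ lowRoot (sysE8.vec 3 r).toNat →
        ∃ j < 8, j ≠ 3 ∧ Cfsg.Lie.chevE8.reflectRoot j r < r) := by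
  have h := chkNodeE8_eq
  simp only [chkNodeE8, Bool.and_eq_true, List.all_eq_true, List.mem_range] at h
  have h' := h.1.1.1 r hr
  simp only [Bool.or_eq_true, Bool.and_eq_true, decide_eq_true_eq, List.any_eq_true] at h'
  rw [vec_eq] at h1 ⊢
  rw [reflect_eq (by norm_num) hr, vec_eq]
  rcases h' with (h' | h') | ⟨⟨ha, hb⟩, hc⟩
  · omega
  · omega
  refine ⟨ha, fun h2 => ?_, fun hne => ?_⟩
  · rcases hb with hb | hb <;> omega
  · rcases hc with hc | ⟨j, hj, hc⟩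
    · exact absurd hc hne
    · have hj8 : j < 8 ∧ j ≠ 3 := by
        simp only [List.mem_cons, List.not_mem_nil, or_false] at hj
        omega
      exact ⟨j, hj8.1, hj8.2, by rw [reflect_eq hj8.1 hr]; exact hc⟩

theorem low_spec {i : ℕ} (h1 : 1 ≤ i) (h6 : i ≤ 6) :
    120 ≤ lowRoot i ∧ lowRoot i < 240 ∧ sysE8.vec 3 (lowRoot i) = i ∧
      (2 ≤ i → sysE8.vec 3 (Cfsg.Lie.chevE8.reflectRoot 3 (lowRoot i)) < i) := by
  have h := chkNodeE8_eq
  simp only [chkNodeE8, Bool.and_eq_true, List.all_eq_true, List.mem_range] at h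
  have h' := h.1.1.2 i (by simp only [List.mem_cons, List.not_mem_nil, or_false]; omega)
  simp only [Bool.or_eq_true, decide_eq_true_eq] at h'
  obtain ⟨⟨⟨ha, hb⟩, hc⟩, hd⟩ := h'
  refine ⟨ha, hb, hc, fun h2 => ?_⟩
  rw [reflect_eq (by norm_num) hb, vec_eq]
  rcases hd with hd | hd
  · omega
  · exact hd

theorem low_one : Cfsg.Lie.chevE8.simple 3 = lowRoot 1 := by
  have h := chkNodeE8_eq
  simp only [chkNodeE8, Bool.and_eq_true, decide_eq_true_eq] at h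
  exact h.2

theorem node_gen {j : ℕ} (hj : j < 8) (hj3 : j ≠ 3) :
    ∃ r < 240, 1 ≤ sysE8.vec 3 r ∧ Cfsg.Lie.chevE8.cartan j r = 1 := by
  have h := chkNodeE8_eq
  simp only [chkNodeE8, Bool.and_eq_true, List.all_eq_true, List.mem_range, List.any_eq_true,
    decide_eq_true_eq] at h
  obtain ⟨r, hr, h1, h2⟩ := h.1.2 j (by simp only [List.mem_cons, List.not_mem_nil, or_false]; omega)
  refine ⟨r, hr, h1, ?_⟩
  have h3 := sysE8.vec_w j hj r hr j hj
  rw [if_pos rfl, reflect_eq hj hr, vec_eq, vec_eq, h2] at h3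
  omega

variable {F : Type*} [Field F]

/-- The parabolic subgroup of the node. -/
abbrev nodeP (F : Type*) [Field F] : Subgroup (GL Cfsg.Lie.chevE8.Idx F) :=
  Cfsg.Lie.chevE8.parabolicSubgroup F {j | j ≠ 3}

/-- The level subgroups of the node. -/
abbrev nodeV (F : Type*) [Field F] (i : ℕ) : Subgroup (GL Cfsg.Lie.chevE8.Idx F) :=
  uSub Cfsg.Lie.chevE8 F (sysE8.lvlSet 3 i)

theorem supportE8 : sysE8.SupportEq := supportEq_of_chk checkedE8 chkSupp_E8

theorem nG_invol (hF : ∀ t : F, t = 0 ∨ t = 1) {i : ℕ} (hi : i < 8) :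
    sysE8.nG F (Cfsg.Lie.chevE8.simple i) 1 * sysE8.nG F (Cfsg.Lie.chevE8.simple i) 1 = 1 := by
  have h := sysE8.nG_sq_mem F (i := i) hi
  rwa [sysE8.diagonal_eq_bot F hF, Subgroup.mem_bot] at h

theorem nodeV_shift (hF : ∀ t : F, t = 0 ∨ t = 1) {i : ℕ} (hi : 1 ≤ i) {v : GL Cfsg.Lie.chevE8.Idx F}
    (hv : v ∈ nodeV F (i + 1)) :
    sysE8.nG F (Cfsg.Lie.chevE8.simple 3) 1 * v * sysE8.nG F (Cfsg.Lie.chevE8.simple 3) 1 ∈
      nodeV F i := by
  have h := sysE8.nG_conj_uSub F (i := 3) (by decide) (Q := sysE8.lvlSet 3 i) ?_ hv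
  · rwa [inv_eq_of_mul_eq_one_right (nG_invol hF (by norm_num))] at h
  intro r hr h1 h2
  simp only [Sys.lvlSet, Set.mem_ofPred_eq] at hr ⊢
  have h3 := (node_roots h2 h1 (by omega)).2.1 (by omega)
  exact ⟨by omega, sysE8.pos_of_vec (sysE8.w_lt 3 (by decide) r h2) (m := 3) (by decide) (by omega)⟩

theorem nodeV_descent_one (hF : ∀ t : F, t = 0 ∨ t = 1) (Y : Subgroup (GL Cfsg.Lie.chevE8.Idx F))
    (hY : NormBy (nodeP F) Y) (hY1 : Y ≤ nodeV F 1)
    (hs : ∀ y ∈ Y, sysE8.nG F (Cfsg.Lie.chevE8.simple 3) 1 * y *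
      sysE8.nG F (Cfsg.Lie.chevE8.simple 3) 1 ∈ nodeP F) : Y ≤ nodeV F 2 := by
  have hk : 3 < Cfsg.Lie.chevE8.rank := by decide
  obtain ⟨h1, h2, h3, -⟩ := low_spec le_rfl (by norm_num : 1 ≤ 6)
  refine sysE8.level_descent F hk le_rfl h3 ?_ hY fun y hy => ?_
  · intro r hr hp hv hne
    exact (node_roots hr hp (by omega)).2.2 (by rw [hv]; exact hne)
  have hy' : y ∈ uSub Cfsg.Lie.chevE8 F (sysE8.others 3) := by
    refine sysE8.mem_others_of_conj F hF hk le_sup_left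
      (sysE8.xG_neg_simple_not_mem_parabolic F supportE8 hk hF)
      (uSub_le_posUnipotent F _ (hY1 hy)) ?_
    rw [inv_eq_of_mul_eq_one_right (nG_invol hF (by norm_num))]
    exact hs y hy
  have h := sysE8.uSub_inf F (sysE8.closed_of_up (sysE8.upSet_lvl hk 1)) (sysE8.closed_others hk)
  have hm : y ∈ nodeV F 1 ⊓ uSub Cfsg.Lie.chevE8 F (sysE8.others 3) := ⟨hY1 hy, hy'⟩
  rw [h] at hm
  refine uSub_mono ?_ hm
  rintro r ⟨hr1, hr2⟩
  exact ⟨hr1, fun e => hr2 (by rw [low_one]; exact e)⟩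

theorem nodeV_top {i : ℕ} (hi : 7 ≤ i) : nodeV F i = ⊥ :=
  uSub_empty_of fun r hr hp => by
    obtain ⟨h1, h2⟩ := (sysE8.pos_iff r).mp hp
    simp only [Sys.lvlSet, Set.mem_ofPred_eq] at hr
    have := (node_roots h2 h1 (by omega)).1
    omega

theorem nodeV_six_ne_bot : nodeV F 6 ≠ ⊥ := by
  obtain ⟨h1, h2, h3, -⟩ := low_spec (by norm_num : 1 ≤ 6) le_rfl
  intro h
  have hm : sysE8.xG F (lowRoot 6) 1 ∈ nodeV F 6 :=
    sysE8.xG_mem_uSub F (P := sysE8.lvlSet 3 6) (by simp [Sys.lvlSet, h3]) h1 h2 1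
  rw [h, Subgroup.mem_bot, sysE8.xG_eq_one_iff F h2] at hm
  exact one_ne_zero hm

theorem nodeV_descent (hF : ∀ t : F, t = 0 ∨ t = 1) {i : ℕ} (hi : 2 ≤ i)
    (Y : Subgroup (GL Cfsg.Lie.chevE8.Idx F))
    (hY : NormBy (nodeP F) Y) (hY1 : Y ≤ nodeV F i)
    (hs : ∀ y ∈ Y, sysE8.nG F (Cfsg.Lie.chevE8.simple 3) 1 * y *
      sysE8.nG F (Cfsg.Lie.chevE8.simple 3) 1 ∈ nodeV F i) : Y ≤ nodeV F (i + 1) := by
  rcases le_or_gt i 6 with h6 | h6
  swap
  · rw [nodeV_top (by omega : 7 ≤ i)] at hY1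
    exact hY1.trans bot_le
  have hk : 3 < Cfsg.Lie.chevE8.rank := by decide
  obtain ⟨h1, h2, h3, h4⟩ := low_spec (by omega) h6
  refine sysE8.level_descent F hk (by omega) h3 ?_ hY fun y hy => ?_
  · intro r hr hp hv hne
    exact (node_roots hr hp (by omega)).2.2 (by rw [hv]; exact hne)
  have hT := sysE8.closed_of_up (sysE8.upSet_lvl hk i)
  set n := sysE8.nG F (Cfsg.Lie.chevE8.simple 3) 1
  have hinv : n * n = 1 := nG_invol hF (by norm_num)
  have hy' : y ∈ uSub Cfsg.Lie.chevE8 F (sysE8.preSet 3 (sysE8.lvlSet 3 i)) := by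
    have h := sysE8.nG_conj_uSub F hk (Q := sysE8.preSet 3 (sysE8.lvlSet 3 i)) ?_ (hs y hy)
    · rwa [inv_eq_of_mul_eq_one_right hinv,
        show n * (n * y * n) * n = (n * n) * y * (n * n) by group, hinv, one_mul, mul_one] at h
    intro r hr hp hl
    have hne : r ≠ Cfsg.Lie.chevE8.simple 3 := by
      rintro rfl
      simp only [Sys.lvlSet, Set.mem_ofPred_eq, sysE8.vec_simple 3 hk 3 hk] at hr
      simp at hr
      omega
    refine ⟨⟨sysE8.w_lt 3 hk r hl, ?_, ?_⟩, sysE8.w_pos 3 hk r hl hp hne⟩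
    · rw [sysE8.w_w 3 hk r hl]; exact hr
    · rw [sysE8.w_w 3 hk r hl]; exact hp
  have h := sysE8.uSub_inf F hT (sysE8.closed_preSet F hk hT)
  have hm : y ∈ nodeV F i ⊓ uSub Cfsg.Lie.chevE8 F (sysE8.preSet 3 (sysE8.lvlSet 3 i)) :=
    ⟨hY1 hy, hy'⟩
  rw [h] at hm
  refine uSub_mono ?_ hm
  rintro r ⟨hr1, -, hr2, -⟩
  refine ⟨hr1, fun e => ?_⟩
  rw [Set.mem_singleton_iff] at e
  subst e
  simp only [Sys.lvlSet, Set.mem_ofPred_eq] at hr2
  have := h4 hi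
  omega

end CfsgLib.ChevCores
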